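import Mathlib
import Cfsg.Agent.Lib.Char.More
import Cfsg.Agent.Lib.MonType.Cross
import Cfsg.Agent.Lib.Leech.Word
import Cfsg.Agent.Lib.Spor55.GolayCoset

/-!
# Weights of elementary abelian sections; the degrees of the first Conway group are at least 276
-/

set_option autoImplicit false

namespace H96.MDeg
open Cfsg Finset H6 H16 H95
open scoped ComplexConjugate symmDiff Pointwise

/-- the multiplicity of a linear character -/
noncomputable def mult {A : Type*} [Group A] [Fintype A] (χ : A → ℂ) (s : A →* ℂˣ) : ℂ :=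
  classInner χ fun a => (s a : ℂ)

theorem fourier {A X : Type*} [Group A] [Fintype A] [Fintype X] (χ : A → ℂ) (s : X → A →* ℂˣ)
    (b : A) : (Nat.card A : ℂ) * ∑ x, mult χ (s x) * s x b =
      ∑ a, χ (a⁻¹ * b) * ∑ x, (s x a : ℂ) := by
  simp only [mul_sum, mult, ← mul_assoc, card_mul_classInner, sum_mul, conj_hom]
  rw [sum_comm]
  refine (Fintype.sum_equiv ((Equiv.inv A).trans (Equiv.mulRight b)) _ _ fun a => ?_).symm
  refine sum_congr rfl fun x _ => ?_
  simp [mul_assoc, mul_left_comm]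

theorem mult_congr {A : Type*} [Group A] [Fintype A] {χ : A → ℂ} {s t : A →* ℂˣ} (e : A ≃ A)
    (h1 : ∀ a, χ (e a) = χ a) (h2 : ∀ a, t (e a) = s a) : mult χ s = mult χ t := by
  rw [mult, mult, ← classInner_comp_equiv e χ fun a => (t a : ℂ)]
  simp only [h1, h2]

theorem mult_nat {A : Type*} [Group A] [Fintype A] {χ : A → ℂ} (h : IsCharacter A χ)
    (s : A →* ℂˣ) : ∃ n : ℕ, mult χ s = n := char_inner_nat h (isCharacter_hom s)

open Classical in
/-- the sign of a sign change at a point -/
noncomputable def s1 (i : GolayPt) (γ : Co0) : ℂˣ := if γ • e8 i = e8 i then 1 else -1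

theorem s1_eps (i : GolayPt) {c : Finset GolayPt} (hc : c ∈ code) :
    s1 i (eps c hc) = if i ∈ c then -1 else 1 := by
  rw [s1, eps_smul_e8]
  by_cases h : i ∈ c
  · simp [h, (e8_ne_neg i i).symm]
  · simp [h]

/-- the character of the group of sign changes given by a set of points -/
noncomputable def sE (S : Finset GolayPt) : epsGroup →* ℂˣ :=
  MonoidHom.mk' (fun γ => ∏ i ∈ S, s1 i γ) (by
    rintro ⟨_, c, hc, rfl⟩ ⟨_, d, hd, rfl⟩
    simp only [← prod_mul_distrib, Subgroup.coe_mul, eps_mul_eps, s1_eps, mem_symmDiff]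
    refine prod_congr rfl fun i _ => ?_
    by_cases h : i ∈ c <;> by_cases k : i ∈ d <;> simp [h, k])

theorem sE_eps (S : Finset GolayPt) {c : Finset GolayPt} (hc : c ∈ code) :
    sE S ⟨eps c hc, c, hc, rfl⟩ = (-1) ^ (S ∩ c).card := by
  simp [sE, s1_eps]

theorem sE_sd (S : Finset GolayPt) {d : Finset GolayPt} (hd : d ∈ code) : sE (S ∆ d) = sE S := by
  ext ⟨_, c, hc, rfl⟩
  have h1 := card_symmDiff_add (S ∩ c) (d ∩ c)
  obtain ⟨k, hk⟩ := H15.even_card_inter hd hc
  rw [sE_eps, sE_eps, show S ∆ d ∩ c = (S ∩ c) ∆ (d ∩ c) from inf_symmDiff_distrib_right _ _ _,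
    neg_one_pow_congr (n := (S ∩ c).card) (by simp only [Nat.even_iff]; omega)]

theorem sum_sE (γ : epsGroup) (h : γ ≠ 1) : ∑ S, (sE S γ : ℂ) = 0 := by
  obtain ⟨_, c, hc, rfl⟩ := γ
  obtain ⟨i, hi⟩ : c.Nonempty := nonempty_iff_ne_empty.2 fun e => h (by
    subst e; exact Subtype.ext eps_empty)
  have := prod_one_add (f := fun i => (s1 i (eps c hc) : ℂ)) univ
  rw [powerset_univ, prod_eq_zero (mem_univ i) (by simp [s1_eps, hi])] at this
  simpa [sE] using this.symm

theorem exists_fam {k : ℕ} (h : k = 2 ∨ k = 4) : ∃ F : Finset (Finset GolayPt), 276 ≤ F.card ∧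
    (∀ T ∈ F, T.card = k) ∧ ∀ T ∈ F, ∀ U ∈ F, (T ∆ U).card < 8 := by
  rcases h with rfl | rfl
  · refine ⟨powersetCard 2 univ, by simp [Nat.choose], fun T h => (mem_powersetCard.1 h).2,
      fun T h U k => ?_⟩
    have := card_symmDiff_add T U
    have := (mem_powersetCard.1 h).2
    have := (mem_powersetCard.1 k).2
    omega
  · have m : ∀ T ∈ (powersetCard 4 (univ : Finset GolayPt)).filter (none ∈ ·),
        T.card = 4 ∧ none ∈ T := fun T h => ⟨(mem_powersetCard.1 (mem_filter.1 h).1).2,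
          (mem_filter.1 h).2⟩
    refine ⟨_, ?_, fun T h => (m T h).1, fun T h U k => ?_⟩
    · refine le_trans (by simp [Nat.choose]) (card_le_card_of_injOn (s := powersetCard 3
        (univ.erase none)) (insert none) (fun T h => ?_) fun T h U k e => ?_)
      · have := mem_powersetCard.1 (mem_coe.1 h)
        have n : none ∉ T := fun e => by simpa using this.1 e
        simp [mem_powersetCard, card_insert_of_notMem n, this.2]
      · have a : none ∉ T := fun e => by simpa using (mem_powersetCard.1 (mem_coe.1 h)).1 e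
        have b : none ∉ U := fun e => by simpa using (mem_powersetCard.1 (mem_coe.1 k)).1 e
        rw [← erase_insert a, e, erase_insert b]
    · have := card_symmDiff_add T U
      have := card_pos.2 ⟨none, mem_inter.2 ⟨(m T h).2, (m U k).2⟩⟩
      have := (m T h).1
      have := (m U k).1
      omega

theorem deg_Co1 {ψ : Spor.Co1 → ℂ} (h : IsIrrCharacter Spor.Co1 ψ) (h1 : ψ ≠ fun _ => 1) {m : ℕ}
    (hm : ψ 1 = m) : 276 ≤ m := by
  classical
  have : Finite Spor.Co1 := Nat.finite_of_card_ne_zero (by rw [card_sCo1]; norm_num)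
  have : Finite epsGroup := Nat.finite_of_card_ne_zero (by rw [card_epsGroup]; norm_num)
  have := Fintype.ofFinite epsGroup
  have := simple_sCo1
  let χ : epsGroup → ℂ := fun a => ψ (mk1 a)
  choose d hd using fun S => mult_nat (χ := χ) (isCharacter_comp (mk1.comp epsGroup.subtype)
    (irr_isCharacter h)) (sE S)
  have F : ∀ b, ∑ S, (d S : ℂ) * sE S b = 4096 * χ b := fun b => by
    have := fourier χ sE b
    rw [Fintype.sum_eq_single (1 : epsGroup) fun a ha => by rw [sum_sE a ha, mul_zero],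
      card_epsGroup] at this
    simp only [hd, map_one, Units.val_one, sum_const, card_univ, Fintype.card_finset, inv_one,
      one_mul] at this
    refine mul_left_cancel₀ (a := 4096) (by norm_num) (this.trans ?_)
    simp
    ring
  have F1 : ∑ S, d S = 4096 * m := by
    have := F 1
    simp only [map_one, Units.val_one, mul_one, χ, OneMemClass.coe_one, hm] at this
    exact_mod_cast this
  have Fn : ∀ S, d S ≠ 0 → Even S.card := fun S hS => by
    have := F ⟨_, univ, univ_mem_code, rfl⟩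
    simp only [sE_eps, inter_univ, χ, Units.val_pow_eq_pow_val, Units.val_neg, Units.val_one] at this
    rw [(mk1_eq_one (a := eps univ univ_mem_code)).2 (Or.inr rfl), hm] at this
    have e : ∑ S, (d S : ℤ) * (1 - (-1) ^ S.card) = 0 := by
      have f : ∑ S, (d S : ℤ) * (-1) ^ S.card = 4096 * m := by exact_mod_cast this
      simp only [mul_sub, sum_sub_distrib, f, mul_one]
      rw [sub_eq_zero]
      exact_mod_cast F1
    have := (sum_eq_zero_iff_of_nonneg fun S _ => mul_nonneg (Nat.cast_nonneg _) (by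
      rcases neg_one_pow_eq_or ℤ S.card with e | e <;> simp [e])).1 e S (mem_univ _)
    by_contra o
    simp [hS, (Nat.not_even_iff_odd.1 o).neg_one_pow] at this
  have c1 : ∀ S, ∀ c ∈ code, d (S ∆ c) = d S := fun S c hc => by
    have := hd (S ∆ c)
    rw [sE_sd S hc, hd] at this
    exact_mod_cast this.symm
  have c2 : ∀ S, ∀ σ ∈ M24, d (σ • S) = d S := fun S σ hσ => by
    have n : ∀ τ : M24, ∀ a : epsGroup, permHom τ * a * (permHom τ)⁻¹ ∈ epsGroup := by
      rintro τ ⟨_, c, hc, rfl⟩
      exact ⟨_, _, by rw [permHom_mul_eps, mul_inv_cancel_right]⟩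
    have := mult_congr (χ := χ) (s := sE S) (t := sE (σ • S)) ⟨fun a => ⟨_, n ⟨σ, hσ⟩ a⟩,
      fun a => ⟨_, n ⟨σ, hσ⟩⁻¹ a⟩, fun a => by simp [mul_assoc], fun a => by simp [mul_assoc]⟩
      (fun a => by simpa [χ] using irr_isClassFunction h _ _) (by
        rintro ⟨_, c, hc, rfl⟩
        simp only [Equiv.coe_fn_mk, permHom_mul_eps, mul_inv_cancel_right, sE_eps]
        rw [← smul_finset_inter, card_smul_finset])
    rw [hd, hd] at this
    exact_mod_cast this.symm
  by_cases H : ∀ S, d S ≠ 0 → S ∈ code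
  · have o := H15.oct0_mem
    have := F ⟨_, _, o.1, rfl⟩
    rw [sum_congr rfl (g := fun S => (d S : ℂ)) fun S _ => by
      by_cases e : d S = 0
      · simp [e]
      · simp [sE_eps, (H15.even_card_inter (H S e) o.1).neg_one_pow], ← Nat.cast_sum, F1] at this
    push_cast at this
    rcases mk1_eq_one.1 (eq_one_of_simple h h1 ((mul_left_cancel₀ (by norm_num) this).symm.trans
      hm.symm)) with e | e
    · have := (mono_inj (show eps _ o.1 = eps ∅ empty_mem_code from e.trans eps_empty.symm)).2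
      simpa [this] using o.2
    · have := (mono_inj (show eps _ o.1 = eps univ univ_mem_code from e)).2
      simpa [this] using o.2
  · push Not at H
    obtain ⟨S, hS, nS⟩ := H
    obtain ⟨T, t4, hT⟩ := H55.Golay.exists_small S
    have dT : d T = d S := by rw [← c1 S _ hT, symmDiff_symmDiff_cancel_left]
    obtain ⟨k, hk⟩ := Fn T (dT ▸ hS)
    have t0 : T.card ≠ 0 := fun e => nS (by
      rwa [card_eq_zero.1 e, ← bot_eq_empty, symmDiff_bot] at hT)
    obtain ⟨Fm, a, b, c⟩ := exists_fam (k := T.card) (by omega)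
    have inj : Set.InjOn (fun p : Finset GolayPt × Finset GolayPt => p.1 ∆ p.2) ↑(Fm ×ˢ codeF) := by
      rintro ⟨U, u⟩ hu ⟨W, w⟩ hw e
      simp only [coe_product, Set.mem_prod, mem_coe, mem_codeF] at hu hw e
      have f : U ∆ W = u ∆ w := by
        rw [← symmDiff_symmDiff_cancel_right u U, e, symmDiff_right_comm, symmDiff_right_comm W,
          symmDiff_self, bot_symmDiff, symmDiff_comm]
      have g := H15.eq_of_card_symmDiff_lt hu.2 hw.2 (f ▸ c U hu.1 W hw.1)
      subst g
      rw [symmDiff_left_inj.1 e]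
    have := card_nsmul_le_sum ((Fm ×ˢ codeF).image fun p => p.1 ∆ p.2) d 1 fun x hx => by
      obtain ⟨⟨U, u⟩, hu, rfl⟩ := mem_image.1 hx
      rw [mem_product, mem_codeF] at hu
      obtain ⟨σ, hσ, e⟩ := H15.M24_trans_sets (s := T) (t := U) (by omega) (b U hu.1).symm
      rw [c1 _ _ hu.2, ← e, c2 _ _ hσ]
      omega
    rw [card_image_of_injOn inj, card_product, card_codeF, smul_eq_mul] at this
    have := this.trans (sum_le_sum_of_subset (subset_univ _))
    omega

theorem deg_char {ψ : Spor.Co1 → ℂ} [Fintype Spor.Co1] (h : IsCharacter Spor.Co1 ψ) :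
    ∃ k u : ℕ, classInner ψ (fun _ => 1) = k ∧ ψ 1 = u ∧
      (k = 0 → u = 0 ∨ 276 ≤ u ∧ (u ∣ 4157776806543360000 ∨ 552 ≤ u)) := by
  refine char_induction (P := fun ψ => ∃ k u : ℕ, classInner ψ (fun _ => 1) = k ∧ ψ 1 = u ∧
      (k = 0 → u = 0 ∨ 276 ≤ u ∧ (u ∣ 4157776806543360000 ∨ 552 ≤ u)))
    ⟨0, 0, by simp [classInner_zero_left], by simp, fun _ => Or.inl rfl⟩ (fun χ hχ => ?_) ?_ h
  · obtain ⟨u, -, a, b⟩ := irr_one_dvd_card hχ
    by_cases e : χ = fun _ => 1
    · exact ⟨1, u, by rw [e, classInner_one_one, Nat.cast_one], a, fun f => absurd f one_ne_zero⟩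
    · exact ⟨0, u, by rw [irr_inner_ne hχ isIrrCharacter_one e, Nat.cast_zero], a,
        fun _ => Or.inr ⟨deg_Co1 hχ e a, Or.inl (card_sCo1 ▸ b)⟩⟩
  · rintro χ ψ ⟨k, u, a, b, c⟩ ⟨l, w, a', b', c'⟩
    refine ⟨k + l, u + w, by rw [classInner_add_left, a, a', Nat.cast_add],
      by rw [Pi.add_apply, b, b', Nat.cast_add], fun e => ?_⟩
    rcases c (by omega) with rfl | c
    · simpa using c' (by omega)
    · rcases c' (by omega) with rfl | c'
      · exact Or.inr c
      · exact Or.inr ⟨by omega, Or.inr (by omega)⟩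

end H96.MDeg
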