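import Mathlib
import Cfsg.Agent.Lib.MDeg.Co
import Cfsg.Agent.Lib.MonSC.Gen

/-!
# The degrees of the Monster are at least 196883
-/

set_option autoImplicit false

namespace H96.MDeg
open Cfsg Finset H6 H16 H95 Subgroup

theorem fix_of_mult {A V : Type*} [Group A] [Fintype A] [AddCommGroup V] [Module ℂ V]
    [FiniteDimensional ℂ V] (ρ : Representation ℂ A V) {s : A →* ℂˣ} (hs : ∀ a, s a = 1 ∨ s a = -1)
    (h0 : mult ρ.character s = 0) {v : V} (hv : ∀ a, s a = 1 → ρ a v = v) (a : A) : ρ a v = v := by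
  refine (hs a).elim (hv a) fun ha => ?_
  let τ : Representation ℂ A V := ⟨⟨fun q => (s q : ℂ) • ρ q, by simp⟩, fun p q => by
    simp [mul_smul, smul_comm (s p : ℂ)]⟩
  have h1 := classInner_character_one τ
  rw [mult, classInner_eq_mul_conj_one] at h0
  rw [show τ.character = fun q => ρ.character q * (starRingEnd ℂ) (s q : ℂ) from funext fun q => by
    rcases hs q with e | e <;> simp [τ, Representation.character, e], h0, eq_comm, Nat.cast_eq_zero,
    Submodule.finrank_eq_zero] at h1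
  have h2 : v - ρ a v ∈ τ.invariants := fun q => by
    have m : ∀ x y w, ρ x (ρ y w) = ρ (x * y) w := fun x y w => by simp
    change (s q : ℂ) • ρ q (v - ρ a v) = _
    rcases hs q with e | e
    · rw [e, map_sub, hv q e, m, show q * a = a * (a⁻¹ * q * a) by group, ← m, hv _ (by simp [e])]
      simp
    · rw [e, map_sub, m, hv (q * a) (by simp [e, ha]), show q = a * (a⁻¹ * q) by group, ← m,
        hv _ (by simp [e, ha])]
      simp
  exact (sub_eq_zero.1 (h1.le h2)).symm

variable {G : Type*} [Group G] {z : G} {Q : Subgroup G}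

open Classical in
/-- the linear character of an extraspecial group given by commutation with an element -/
noncomputable def sQ (h : ES Q z) (y : Q) : Q →* ℂˣ :=
  MonoidHom.mk' (fun q => if (q : G) * y = y * q then 1 else -1) (by
    intro a b
    by_cases ha : (a : G) * y = y * a <;> by_cases hb : (b : G) * y = y * b
    · simp [ha, hb, ((show Commute _ _ from ha).mul_left hb).eq]
    · have : ¬(a : G) * b * y = y * (a * b) := fun e =>
        hb (mul_left_cancel (a := (a : G)) (by rw [← mul_assoc, e, ← mul_assoc, ← mul_assoc, ha]))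
      simp [ha, hb, this]
    · have : ¬(a : G) * b * y = y * (a * b) := fun e =>
        ha (mul_right_cancel (b := (b : G)) (by rw [mul_assoc, ← hb, ← mul_assoc, e, mul_assoc]))
      simp [ha, hb, this]
    · simp [ha, hb, h.mul_comm_of_ne y.2 a.2 b.2 ha hb])

theorem sQ_eq_one (h : ES Q z) {y q : Q} : sQ h y q = 1 ↔ (q : G) * y = y * q := by
  simp [sQ, Units.ext_iff, neg_eq_iff_add_eq_zero]

theorem sQ_cases (h : ES Q z) (y q : Q) : sQ h y q = 1 ∨ sQ h y q = -1 := by
  by_cases e : (q : G) * y = y * q <;> simp [sQ, e]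

theorem sQ_congr (h : ES Q z) {y q y' q' : Q}
    (e : (q : G) * y = y * q ↔ (q' : G) * y' = y' * q') : sQ h y q = sQ h y' q' := by
  classical exact if_congr e rfl rfl

theorem sQ_comm (h : ES Q z) (y q : Q) : sQ h y q = sQ h q y := sQ_congr h eq_comm

theorem sQ_z (h : ES Q z) (y : Q) : sQ h y ⟨z, h.mem⟩ = 1 := (sQ_eq_one h).2 (h.central y y.2).symm

theorem sQ_mul_z (h : ES Q z) (y : Q) : sQ h (y * ⟨z, h.mem⟩) = sQ h y :=
  MonoidHom.ext fun q => by rw [sQ_comm, map_mul, sQ_z, mul_one, sQ_comm]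

theorem fourierQ [Fintype Q] (h : ES Q z) (χ : G → ℂ) (b : Q) :
    ∑ y, mult (fun q : Q => χ q) (sQ h y) * sQ h y b = χ b + χ (z * b) := by
  have := fourier (fun q : Q => χ q) (sQ h) b
  rw [Fintype.sum_eq_add (f := fun a => χ (a⁻¹ * b : Q) * _) (1 : Q) ⟨z, h.mem⟩
    (fun e => h.ne_one (congrArg Subtype.val e).symm) fun a ha => by
      obtain ⟨y, hy, e⟩ := h.exists_noncomm a.2 (fun e => ha.1 (Subtype.ext e))
        fun e => ha.2 (Subtype.ext e)
      have := sum_hom_units_eq_zero ((Units.coeHom ℂ).comp (sQ h a)) fun f =>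
        e ((sQ_eq_one h (q := ⟨y, hy⟩)).1 (Units.ext (DFunLike.congr_fun f _)))
      simp only [sQ_comm h _ a]
      exact mul_eq_zero_of_right _ this] at this
  refine mul_left_cancel₀ H6.card_ne_zero (this.trans ?_)
  simp [sQ_z, h.inv_eq, add_mul, mul_comm]

/-- the vectors of a given norm -/
noncomputable def sh (n : ℤ) : Finset leechLattice := by
  classical exact (shell n).subtype _

theorem mem_sh {n : ℤ} {v : leechLattice} : v ∈ sh n ↔ sqNorm (v : GolayPt → ℤ) = n := by
  simp [sh, mem_shell]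

theorem card_sh (n : ℤ) : (sh n).card = (shell n).card := by
  classical
  rw [sh, card_subtype, filter_true_of_mem fun x hx => ((mem_shell _ _).1 hx).1]

theorem sh_zero : sh 0 = {0} := by
  ext v
  simp [sh, shell_zero]

theorem card_odd : ((sh 32).filter fun v => ¬(2 : ℤ) ∣ v.1 none).card = 98304 := by
  have := ncard_parity 8 le_rfl 1 (by norm_num) 32
  rw [show cntTot 8 1 32 = 98304 by decide +kernel] at this
  rw [← this, ← Set.ncard_coe_finset, ← Set.ncard_image_of_injective _ Subtype.val_injective]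
  congr 1
  ext x
  simp only [coe_filter, mem_sh, Set.mem_image, Set.mem_ofPred_eq, Nat.cast_one, Nat.cast_ofNat]
  constructor
  · rintro ⟨v, ⟨a, b⟩, rfl⟩
    refine ⟨((mem_leech_iff' _).1 v.2).resolve_left ?_, abs_le_of_sqNorm (k := 8) (by omega), a⟩
    rintro ⟨c, -, h⟩
    have := h.1 none
    omega
  · rintro ⟨⟨c, hc, h⟩, -, a⟩
    have := h.1 none
    exact ⟨⟨x, h.mem hc⟩, ⟨a, by simp only; omega⟩, rfl⟩

variable {φ : centralizer ({z} : Set G) →* Spor.Co1} {cls : leechLattice → G → Prop}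

theorem sum_Q [Fintype Q] (M : Mon z Q φ cls) {el : leechLattice → Q} (hel : ∀ v, cls v (el v))
    {F : Q → ℂ} (hF : ∀ y, F (y * ⟨z, M.h.mem⟩) = F y) : 24 * ∑ y, F y = 48 * F (el 0) +
      24 * ∑ v ∈ sh 32, F (el v) + 24 * ∑ v ∈ sh 48, F (el v) + ∑ v ∈ sh 64, F (el v) := by
  classical
  choose rep hrep using fun y : Q => M.ex_cls y y.2
  have key : ∀ n, 2 * ∑ v ∈ sh n, F (el v) =
      ∑ y, (clsCard n (QuotientAddGroup.mk (rep y).1) : ℂ) * F y := fun n => by
    have a : ∀ v, ∑ y : Q, (if cls v y then F y else 0) = 2 * F (el v) := fun v => by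
      have n : el v ≠ el v * ⟨z, M.h.mem⟩ := fun e =>
        M.h.ne_one (congrArg Subtype.val (left_eq_mul.1 e))
      rw [Fintype.sum_eq_add _ _ n fun y hy => if_neg fun e =>
        (((M.eq_iff (hel v) e).1 (Cg.refl v)).imp Subtype.ext Subtype.ext).elim hy.1 hy.2,
        if_pos (hel v), if_pos (by exact M.mul_z (hel v)), hF, two_mul]
    rw [mul_sum, ← sum_congr rfl fun v _ => a v, sum_comm]
    refine sum_congr rfl fun y _ => ?_
    rw [← sum_filter, sum_const, nsmul_eq_mul, clsCard]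
    congr 2
    refine card_nbij Subtype.val (fun v hv => ?_) Subtype.val_injective.injOn fun x hx => ?_
    · rw [mem_coe, mem_filter, mem_sh] at hv
      exact mem_coe.2 (mem_filter.2 ⟨(mem_shell _ _).2 ⟨v.2, hv.1⟩, (mk_eq_mk_iff _ _).2
        ((M.eq_iff hv.2 (hrep y)).2 (Or.inl rfl))⟩)
    · rw [mem_coe, mem_filter, mem_shell] at hx
      exact ⟨⟨x, hx.1.1⟩, mem_coe.2 (mem_filter.2 ⟨mem_sh.2 hx.1.2,
        M.congr (hrep y) (Cg.symm ((mk_eq_mk_iff _ _).1 hx.2))⟩), rfl⟩
  have e : 48 * ∑ y, F y = 48 * (2 * ∑ v ∈ sh 0, F (el v)) + 24 * (2 * ∑ v ∈ sh 32, F (el v)) +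
      24 * (2 * ∑ v ∈ sh 48, F (el v)) + 2 * ∑ v ∈ sh 64, F (el v) := by
    simp only [key, mul_sum, ← sum_add_distrib]
    refine sum_congr rfl fun y _ => ?_
    have := congrArg (Nat.cast (R := ℂ)) (clsWeight_eq (rep y).2)
    push_cast at this
    linear_combination -this * F y
  rw [sh_zero, sum_singleton] at e
  linear_combination e / 2

theorem weights [Finite G] [Fintype Q] (M : Mon z Q φ cls) {χ : G → ℂ} (hχ : IsCharacter G χ)
    {w : G} (hw : w ∈ Q) (hc : IsConj z w) (hne : w ≠ z) {n : ℕ} (hn : χ 1 = n) (hlt : n < 196883)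
    (hz : χ z ≠ n) : mult (fun q : Q => χ q) (sQ M.h.toES ⟨w, hw⟩) = 0 ∧
      ∃ u : ℕ, mult (fun q : Q => χ q) 1 = u ∧ n = u + 196584 := by
  choose el hel using M.ex_elt
  choose d hd using fun y => mult_nat (isCharacter_restrict Q hχ) (sQ M.h.toES y)
  have cj : ∀ {x y : Q} {c : G}, c ∈ centralizer ({z} : Set G) → c * x * c⁻¹ = y → d x = d y := by
    intro x y c hc e
    have n := fun {c} (hc : c ∈ centralizer ({z} : Set G)) (a : Q) =>
      conj_mem_of_normalizer (M.h.norm c (mem_cent_iff.1 hc)) a.2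
    have := mult_congr (χ := fun q : Q => χ q) (s := sQ M.h.toES x) (t := sQ M.h.toES y)
      ⟨fun a => ⟨_, n hc a⟩, fun a => ⟨_, n (inv_mem hc) a⟩, fun a => by simp [mul_assoc],
        fun a => by simp [mul_assoc]⟩ (fun a => char_isClassFunction hχ _ _) fun a =>
          sQ_congr _ (by simp [← e, ← mul_assoc]; simp [mul_assoc])
    rw [hd, hd] at this
    exact_mod_cast this
  let E : leechLattice → Q := fun v => ⟨el v, M.mem (hel v)⟩
  have S : ∀ b : Q, 24 * (χ b + χ (z * b)) = 48 * d (E 0) +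
      24 * (d (E vU) * ∑ v ∈ sh 32, (sQ M.h.toES (E v) b : ℂ)) +
      24 * (d (E vV) * ∑ v ∈ sh 48, (sQ M.h.toES (E v) b : ℂ)) +
      d (E (e8 none)) * ∑ v ∈ sh 64, (sQ M.h.toES (E v) b : ℂ) := fun b => by
    rw [← fourierQ M.h.toES, sum_Q M (el := E) hel fun y => by rw [sQ_mul_z]]
    simp only [hd, mul_sum]
    congr 1
    · congr 1
      · congr 1
        · rw [(sQ_eq_one _).2, Units.val_one, mul_one]
          rcases (M.cg_zero_iff (hel 0)).1 (Cg.refl 0) with e | e
          · simp [E, e]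
          · simpa [E, e] using M.h.central b b.2
        · refine sum_congr rfl fun v hv => ?_
          obtain ⟨c, a, e⟩ := M.conj_of_norm32 (hel v) (hel vU) (mem_sh.1 hv) norm_U
          rw [cj (x := E v) (y := E vU) a e]
      · refine sum_congr rfl fun v hv => ?_
        obtain ⟨g, rfl⟩ := exists_smul_V (mem_sh.1 hv)
        obtain ⟨c, -, e⟩ := M.exists_conj (hel vV) (hel (g • vV)) (fun e => by
          have := e.norm_eq (by rw [sqNorm_zero']; norm_num) (by rw [mem_sh.1 hv]; norm_num)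
          rw [sqNorm_zero', mem_sh.1 hv] at this
          omega) (Cg.refl _)
        rw [cj (x := E vV) (y := E (g • vV)) c.2 e]
    · refine sum_congr rfl fun v hv => ?_
      obtain ⟨c, a, e⟩ := M.conj_of_norm64 (hel v) (hel _) (mem_sh.1 hv) (sqNorm_e8 none)
      rw [cj (x := E v) (y := E (e8 none)) a e]
  have S1 := S 1
  simp only [map_one, Units.val_one, sum_const, card_sh, card_shell32, card_shell48, card_shell64,
    OneMemClass.coe_one, mul_one, hn, nsmul_eq_mul] at S1
  have zr : χ z = ((2 * d (E 0) + 196560 * d (E vU) + 16773120 * d (E vV) +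
      16584750 * d (E (e8 none)) - n : ℤ) : ℂ) := by
    push_cast at S1 ⊢
    linear_combination S1 / 24
  have le := char_norm_le hχ z
  rw [zr, hn, Complex.norm_intCast, Complex.norm_natCast] at le
  rw [← Int.cast_natCast (R := ℝ) n] at le
  replace le := Int.cast_le.1 (le_of_abs_le le)
  have d3 : d (E vV) = 0 := by omega
  have d4 : d (E (e8 none)) = 0 := by omega
  obtain ⟨v, hv, nv⟩ := M.norm64_of_isConj hw hc hne
  have c1 := M.isConj_of_norm64 hw hc hne (hel _) (sqNorm_e8 none)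
  have c2 := M.isConj_of_norm64 hw hc hne (M.mul_z (hel _)) (sqNorm_e8 none)
  rw [M.h.central _ (E _).2] at c2
  have S2 := S (E (e8 none))
  have p : ∑ v ∈ sh 32, (sQ M.h.toES (E v) (E (e8 none)) : ℂ) = -48 := by
    rw [sum_congr rfl (g := fun v => 1 - 2 * if ¬(2 : ℤ) ∣ v.1 none then 1 else 0) fun v _ => by
      have : (2 : ℤ) ∣ v.1 none ↔ sQ M.h.toES (E v) (E (e8 none)) = 1 := by
        rw [sQ_eq_one, M.commute_iff (hel _) (hel _), coe_e8, dotInt_single_left]
        omega
      rcases sQ_cases M.h.toES (E v) (E (e8 none)) with e | e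
      · simp [e, this]
      · simp [e, this, Units.ext_iff, neg_eq_iff_add_eq_zero]
        norm_num]
    rw [sum_sub_distrib, ← mul_sum, sum_boole, card_odd, sum_const, card_sh, card_shell32]
    norm_num
  rw [p, d3, d4, ← classFun_of_isConj (char_isClassFunction hχ) c1,
    ← classFun_of_isConj (char_isClassFunction hχ) c2] at S2
  rw [zr, d3, d4] at S2 hz
  have S3 : 48 * ((2 * d (E 0) + 196560 * d (E vU) : ℤ) - n) = 48 * d (E 0) - 1152 * d (E vU) := by
    push_cast at S2
    exact_mod_cast (by linear_combination S2 :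
      48 * ((2 * d (E 0) + 196560 * d (E vU) : ℂ) - n) = 48 * d (E 0) - 1152 * d (E vU))
  have hz' : (2 * d (E 0) + 196560 * d (E vU) : ℤ) - n ≠ n := fun e => hz (by
    push_cast
    exact_mod_cast (by simpa using e : (2 * d (E 0) + 196560 * d (E vU) + 0 + 0 : ℤ) - n = n))
  obtain ⟨c, a, e⟩ := M.conj_of_norm64 hv (hel _) nv (sqNorm_e8 none)
  refine ⟨by rw [hd, cj (x := ⟨w, hw⟩) (y := E _) a e, d4, Nat.cast_zero], d (E 0), ?_, by omega⟩
  rw [← hd]
  congr 1
  refine MonoidHom.ext fun b => ((sQ_eq_one _).2 ?_).symm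
  rcases (M.cg_zero_iff (hel 0)).1 (Cg.refl 0) with e | e
  · simp [E, e]
  · simpa [E, e] using M.h.central b b.2

open H95.Gr in
theorem irr_deg {χ : GG → ℂ} (hχ : IsIrrCharacter GG χ) {n : ℕ} (hn : χ 1 = n) (hz : χ zA ≠ n) :
    196883 ≤ n := by
  by_contra! hlt
  have := Fintype.ofFinite (QQ ℝ)
  have : Finite Spor.Co1 := Nat.finite_of_card_ne_zero (by rw [card_sCo1]; norm_num)
  have := Fintype.ofFinite Spor.Co1
  obtain ⟨g₀, a, b⟩ := exists_conj_z (F := ℝ)
  obtain ⟨g, e, h1⟩ := (inQ_z.2 a).symm (iz_z.conj g₀)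
  rw [← e] at a b
  obtain ⟨h0, u, hu, hn'⟩ := weights mon (irr_isCharacter hχ) a (iz_z.conj g) b hn hlt hz
  obtain ⟨m, -, hm, dv⟩ := irr_one_dvd_card hχ
  obtain ⟨k, ρ, irr, rfl⟩ := hχ
  have fix : ∀ v, (∀ c ∈ centralizer ({zA} : Set GG), ρ c v = v) → v = 0 := fun v hv => by
    let K : Subgroup GG := ⟨⟨⟨{c | ρ c v = v}, fun {x y} hx hy => by
      simp only [Set.mem_ofPred_eq] at *; simp [hx, hy]⟩, by simp⟩, fun {x} hx => by
        simp only [Set.mem_ofPred_eq] at *
        rw [← hx, ← Module.End.mul_apply, ← map_mul, hx]; simp⟩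
    obtain ⟨q, hq, e⟩ := es_QQ.exists_conj a (iz_z.conj g).ne_one b
    have f := fix_of_mult (ρ.comp (QQ ℝ).subtype) (sQ_cases es_QQ _) h0 (v := ρ g v) (fun x hx => by
      have := hv (cj g⁻¹ x) (mem_cent_iff.2 ((cj g).injective (by
        rw [map_mul, map_mul, cj_cj']; exact (sQ_eq_one _).1 hx)))
      simpa [← Module.End.mul_apply, ← map_mul, mul_assoc] using congrArg (ρ g) this) ⟨q, hq⟩
    have e' : cj (cj g⁻¹ q) zA = zA * cj g⁻¹ zA := (cj g).injective (by
      rw [map_mul, cj_cj', ← e]; simp [mul_assoc])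
    have top : K = ⊤ := gen hv (g := cj g⁻¹ q) (by
      have := congrArg (ρ g⁻¹) f
      simpa [K, ← Module.End.mul_apply, ← map_mul, mul_assoc] using this)
      (e' ▸ mul_mem es_QQ.mem h1) (e' ▸ fun f => (iz_z.conj g⁻¹).ne_one (mul_eq_left.1 f))
    rcases ((isIrreducible_iff ρ).1 irr).2 (Representation.invariants ρ)
      (fun x w hw => by rw [hw x]; exact hw) with e | e
    · exact e.le fun x => top.ge (mem_top x)
    · refine absurd ((character_eq_finrank_iff ρ zA).2 (LinearMap.ext fun w =>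
        e.ge Submodule.mem_top zA)) ?_
      rwa [← ρ.char_one, hn]
  let σ := ρ.comp (centralizer ({zA} : Set GG)).subtype
  let ε := QuotientGroup.quotientKerEquivOfSurjective phi mon.surj
  let τ : Representation ℂ Spor.Co1 _ :=
    (Representation.quotientToInvariants σ phi.ker).comp ε.symm.toMonoidHom
  obtain ⟨l, u', a1, a2, a3⟩ := deg_char (isCharacter_character τ)
  have l0 : l = 0 := by
    rw [classInner_character_one, Nat.cast_inj] at a1
    rw [← a1, Submodule.finrank_eq_zero, eq_bot_iff]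
    intro v hv
    refine Subtype.ext (fix v fun c hc => ?_)
    have := hv (ε (QuotientGroup.mk ⟨c, hc⟩))
    simp only [τ, MonoidHom.comp_apply, MulEquiv.coe_toMonoidHom, MulEquiv.symm_apply_apply] at this
    exact congrArg Subtype.val this
  have uu : u' = u := by
    have : Representation.invariants (σ.comp phi.ker.subtype) =
        Representation.invariants (ρ.comp (QQ ℝ).subtype) := by
      ext v
      exact ⟨fun h x => h ⟨⟨x, es_QQ.le_centralizer x.2⟩, (mon.ker _).2 x.2⟩,
        fun h x => h ⟨x.1, (mon.ker _).1 x.2⟩⟩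
    rw [Representation.char_one, this, ← classInner_character_one] at a2
    exact_mod_cast a2.symm.trans hu
  rw [hn, Nat.cast_inj] at hm
  rw [← hm, card_GG, hn'] at dv
  exact (by decide +kernel : ∀ u < 299, u + 196584 ∣
    808017424794512875886459904961710757005754368000000000 →
    ¬(u = 0 ∨ 276 ≤ u ∧ (u ∣ 4157776806543360000 ∨ 552 ≤ u))) u (by omega) dv (uu ▸ a3 l0)

open H95.Gr in
theorem deg {n : ℕ} (ρ : GG →* GL (Fin n) ℂ) (hρ : Function.Injective ρ) : 196883 ≤ n := by
  let σ : Representation ℂ GG (Fin n → ℂ) :=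
    (Matrix.toLinAlgEquiv' : _ ≃ₐ[ℂ] _).toMonoidHom.comp ((Units.coeHom _).comp ρ)
  obtain ⟨m, a, b⟩ := char_induction (P := fun χ => ∃ m : ℕ, χ 1 = m ∧ (χ zA = m ∨ 196883 ≤ m))
    ⟨0, by simp, by simp⟩ (fun χ hχ => by
      obtain ⟨m, -, e⟩ := irr_one_pos hχ
      exact ⟨m, e, or_iff_not_imp_left.2 (irr_deg hχ e)⟩) (by
      rintro χ ψ ⟨k, a, b⟩ ⟨l, c, d⟩
      refine ⟨k + l, by simp [a, c], ?_⟩
      rcases b with b | b
      · exact d.imp (fun d => by simp [b, d]) (by omega)
      · exact Or.inr (by omega)) (isCharacter_character σ)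
  rw [Representation.char_one] at a
  refine (b.resolve_left fun e => iz_z.ne_one (hρ (Units.ext ?_))).trans (by simpa [eq_comm, le_iff_lt_or_eq] using Or.inr a)
  have := (character_eq_finrank_iff σ zA).1 (e.trans a.symm)
  simpa using (map_eq_one_iff _ Matrix.toLinAlgEquiv'.injective).1 this

end H96.MDeg
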